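import Cfsg.Agent.Push.Loc
import Cfsg.Agent.Classical.Borel2
import Cfsg.Agent.FGS.Basic
import Cfsg.Agent.S2799

/-! Subgroups of `Z(S)` normalized by `N(J(S))`: the torus of an `SL₂(q)` block. -/

set_option autoImplicit false
set_option linter.unusedSectionVars false

namespace Cfsg.Agent.Push

open Subgroup Cfsg.Agent.LocalEven Cfsg.Agent.Glaub Cfsg.Agent.PLocal
open Cfsg.Agent.Classical.SL2Basic Cfsg.Agent.Classical.Borel2
open scoped commutatorElement MatrixGroups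

universe u

variable {G : Type u} [Group G] {p : ℕ} [Finite G] [hp : Fact p.Prime]

theorem NatData.cjs {F : Type*} [Field F] {E U U₀ : Subgroup G} {σ : E →* SL(2, F)} {ψ}
    (d : NatData F E U U₀ σ ψ) (g : SL(2, F)) :
    NatData F E U U₀ ((MulAut.conj g).toMonoidHom.comp σ)
      fun x => (g : Matrix (Fin 2) (Fin 2) F).mulVec (ψ x) where
  norm := d.norm
  le := d.le
  mul u hu v hv := by rw [d.mul u hu v hv, Matrix.mulVec_add]
  surj x := by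
    obtain ⟨u, hu, e⟩ := d.surj (((g⁻¹ : SL(2, F)) : Matrix (Fin 2) (Fin 2) F).mulVec x)
    refine ⟨u, hu, ?_⟩
    rw [e, Matrix.mulVec_mulVec, ← Matrix.SpecialLinearGroup.coe_mul, mul_inv_cancel]; simp
  ker u hu := by
    rw [← d.ker u hu]
    refine ⟨fun h => ?_, fun h => by rw [h, Matrix.mulVec_zero]⟩
    have := congrArg (((g⁻¹ : SL(2, F)) : Matrix (Fin 2) (Fin 2) F).mulVec) h
    rwa [Matrix.mulVec_mulVec, ← Matrix.SpecialLinearGroup.coe_mul, inv_mul_cancel,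
      Matrix.SpecialLinearGroup.coe_one, Matrix.one_mulVec, Matrix.mulVec_zero] at this
  conj e u hu := by
    rw [d.conj e u hu, Matrix.mulVec_mulVec, Matrix.mulVec_mulVec,
      ← Matrix.SpecialLinearGroup.coe_mul, ← Matrix.SpecialLinearGroup.coe_mul]
    simp

variable {V S M : Subgroup G}

theorem exists_blkC [V.Normal] {n : ℕ} (hn : n = 0 ∨ n = p) (hV : IsElementaryAbelian p V)
    (hS : IsSylowIn p S ⊤) (h : MinIn S ⊤ M) (hO : pCore p G ≤ 𝐂⟮V⟯) (hc : 𝐂⟮V⟯ ≤ M) (hVS : V ≤ S)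
    {A : Subgroup G} (hA : A ∈ Transfer.MaxEA n S) (hAV : ¬ A ≤ 𝐂⟮V⟯) :
    ∃ E : Subgroup G, 𝐂⟮V⟯ ≤ E ∧ ¬ E ≤ M ∧ BlkC p V E ∧ ∀ t ∈ S, cj t E = E ∨ ⁅E, cj t E⁆ ≤ 𝐂⟮V⟯ := by
  obtain ⟨B, b1, m⟩ := exists_minOff_hol hn hV hS.pgrp hVS hA hAV
  have b2 := b1.trans (map_mono (f := holRep V) le_top)
  have mp := minPar_hol' hV hS h hO hc b2 m
  have hD := mp.tvSet b2 m
  set f := holRep V with hf
  have hk : f.ker = 𝐂⟮V⟯ := ker_holRep
  obtain ⟨E, e1, ⟨C, -, c1, c2⟩, e2⟩ := mp.exists_blk hD ⟨1, one_mem _, cj_one B⟩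
  have l : E ≤ (⊤ : Subgroup G).map f := e1.trans wJ_le
  have hE : (E.comap f).map f = E := map_comap_eq_self (l.trans (map_le_range _ _))
  refine ⟨E.comap f, hk ▸ ker_le_comap f _, fun e => c2 (c1.trans (hE.ge.trans (map_mono e))),
    Blk.ofHol (by rw [hE]; simpa [cj_one] using (e2 1 (one_mem _)).1), fun t ht => ?_⟩
  by_cases e : cj (f t) E = E
  · refine Or.inl (cj_eq_of_mem_normalizer (mem_normalizer_of_cj_le ?_))
    rw [← map_le_iff_le_comap, LocalEven.map_cj, hE, e]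
  · refine Or.inr ?_
    rw [← hk, ← Subgroup.map_eq_bot_iff, map_commutator, LocalEven.map_cj, hE]
    have t1 : f t ∈ S.map f := mem_map_of_mem f ht
    have t2 : f t ∈ (⊤ : Subgroup G).map f := mem_map_of_mem f trivial
    refine comm_bot_of_le_cent (hD.mod.comm_of_three l (cj_le_of_mem t2 l) ?_ ((e2 _ t1).2.2 e))
    have := (e2 _ (inv_mem t1)).2.2 fun e' => e (by rw [← e', cj_cj_inv]; exact e'.symm)
    rwa [hD.comm_cj (inv_mem t2), ← le_cj_iff, cj_centralizer] at this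

theorem exists_torus [V.Normal] (h2 : p ≠ 2) (hS : IsSylowIn p S ⊤) (h : MinIn S ⊤ M)
    (hO : pCore p G ≤ 𝐂⟮V⟯) (hc : 𝐂⟮V⟯ ≤ M) {E : Subgroup G} (e1 : 𝐂⟮V⟯ ≤ E) (e2 : ¬ E ≤ M)
    (e3 : BlkC p V E) (e4 : ∀ t ∈ S, cj t E = E ∨ ⁅E, cj t E⁆ ≤ 𝐂⟮V⟯) :
    IsSylowIn p (S ⊓ E) E ∧ ∃ (F : Type) (_ : Field F) (_ : Fintype F) (_ : _root_.CharP F p)
      (σ : E →* SL(2, F)) (ψ : G → Fin 2 → F), NatData F E ⁅V, E⁆ (⁅V, E⁆ ⊓ 𝐂⟮E⟯) σ ψ ∧
      Function.Surjective σ ∧ σ.ker = 𝐂⟮V⟯.subgroupOf E ∧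
      (∃ a : E, (a : G) ∈ S ∧ σ a = upper 1) ∧ ∀ e : E, σ e 1 0 = 0 → (e : G) ∈ M := by
  have top : ∀ X, S ≤ X → ¬ X ≤ M → X = ⊤ := fun X h1 h2 =>
    by_contra fun e => h2 (h.le_of_lt X h1 (lt_top_iff_ne_top.2 e))
  have k1 : cjClos E S ≤ 𝐍⟮E⟯ := cjClos_le_iff.2 fun t ht => (e4 t ht).elim
    (fun e => e.le.trans le_normalizer) fun e => le_normalizer_of_commutator_le_left (e.trans e1)
  have k2 : ⊤ ≤ 𝐍⟮cjClos E S⟯ := (top _ (le_normalizer_cjClos E S) fun e =>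
    e2 ((le_cjClos E S).trans (le_normalizer.trans e))).ge
  have s1 : IsSylowIn p (S ⊓ E) E := by
    have := (hS.inf_of_le_normalizer le_top k2).inf_of_le_normalizer (le_cjClos E S) k1
    rwa [inf_assoc, inf_eq_right.2 (le_cjClos E S)] at this
  refine ⟨s1, ?_⟩
  obtain ⟨n, -, ⟨F, _, _, hF, σ₀, ψ₀, d₀, su₀, ker₀⟩ | ⟨e, -⟩⟩ := e3
  swap
  · exact absurd e h2
  haveI : _root_.CharP F p := charP_of_card_eq_prime_pow hF
  have s2 := isSylowIn_map_surj su₀ (isSylowIn_subgroupOf_top s1)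
  obtain ⟨g, -, hg⟩ := (isSylowIn_top (sylSL F p)).exists_cj_le s2.pgrp le_top
  have hg' : cj g (((S ⊓ E).subgroupOf E).map σ₀) = USL F :=
    ((s2.cj g).max _ (by rw [LocalEven.cj_top]; exact le_top) (sylSL F p).isPGroup' hg).symm
  set σ := (MulAut.conj g).toMonoidHom.comp σ₀
  have hU : ((S ⊓ E).subgroupOf E).map σ = USL F := by
    rw [← hg', ← Subgroup.map_map]
  have ker : σ.ker = 𝐂⟮V⟯.subgroupOf E := by
    rw [← ker₀]; ext x; simp [σ]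
  have up : ∀ c, ∃ a : E, (a : G) ∈ S ∧ σ a = upper c := fun c => by
    obtain ⟨a, ha, e⟩ := hU.ge (mem_USL.2 ⟨c, rfl⟩)
    exact ⟨a, ha.1, e⟩
  refine ⟨F, inferInstance, inferInstance, inferInstance, σ, _, d₀.cjs g,
    (MulAut.conj g).surjective.comp su₀, ker, up 1, fun e he => ?_⟩
  set R := cjClos (S ⊓ E) S ⊔ 𝐂⟮V⟯
  have nC : ∀ x : G, cj x 𝐂⟮V⟯ ≤ 𝐂⟮V⟯ := fun x =>
    cj_le_of_mem_normalizer (le_normalizer_of_normal (mem_top x)) le_rfl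
  have r1 : S ≤ 𝐍⟮R⟯ := fun s hs => mem_normalizer_of_cj_le (by
    rw [cj_sup]
    exact sup_le_sup (cj_le_of_mem_normalizer (le_normalizer_cjClos _ _ hs) le_rfl) (nC s))
  have r2 : (e : G) ∈ 𝐍⟮R⟯ := mem_normalizer_of_cj_le (by
    rw [cj_sup]
    refine sup_le (cj_le_iff.2 (cjClos_le_iff.2 fun t ht y hy => ?_)) ((nC e).trans le_sup_right)
    rw [mem_cj, inv_inv]
    have hy' := hy
    rw [cj_inf, cj_eq_of_mem ht] at hy'
    rcases e4 t ht with e5 | e5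
    · rw [e5] at hy'
      obtain ⟨c, hc⟩ := mem_USL.1 (hU.le (mem_map_of_mem σ (show (⟨y, hy'.2⟩ : E) ∈
        (S ⊓ E).subgroupOf E from hy')))
      obtain ⟨a, a1, a2⟩ := up (σ e 0 0 ^ 2 * c)
      have : e * ⟨y, hy'.2⟩ * e⁻¹ * a⁻¹ ∈ σ.ker := by
        rw [MonoidHom.mem_ker, map_mul, map_mul, map_mul, map_inv, map_inv, ← hc, conj_upper he, a2,
          mul_inv_cancel]
      rw [ker, mem_subgroupOf] at this
      simpa using mul_mem (mem_sup_right (S := cjClos (S ⊓ E) S) this)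
        (mem_sup_left (le_cjClos (S ⊓ E) S ⟨a1, a.2⟩))
    · have := e5 (commutator_mem_commutator e.2 hy'.2)
      simpa [commutatorElement_def] using mul_mem (mem_sup_right (S := cjClos (S ⊓ E) S) this)
        (mem_sup_left (cj_le_cjClos ht hy)))
  by_contra hn
  have r3 := top _ r1 fun k => hn (k r2)
  obtain ⟨a, a1, a2⟩ := up 1
  have r4 := minIn_le_pCoreOf h hS.pgrp r3.ge (sup_le ((cjClos_le inf_le_left le_normalizer).trans
    h.le) hc) s1.pgrp ((le_cjClos _ _).trans le_sup_left) ⟨a1, a.2⟩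
  have r5 : a ∈ σ.ker := ker ▸ hO (pCoreOf_top.le r4)
  rw [MonoidHom.mem_ker, a2, ← upper_zero] at r5
  exact one_ne_zero (upper_injective r5)

/-- The split torus of `SL₂`. -/
def dgT (F : Type*) [Field F] : Fˣ →* SL(2, F) where
  toFun a := ⟨!![(a : F), 0; 0, ((a⁻¹ : Fˣ) : F)], by simp [Matrix.det_fin_two]⟩
  map_one' := by ext i j; fin_cases i <;> fin_cases j <;> simp
  map_mul' a b := Subtype.ext (by
    change _ = (!![(a : F), 0; 0, ((a⁻¹ : Fˣ) : F)] * !![(b : F), 0; 0, ((b⁻¹ : Fˣ) : F)] :)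
    simp [mul_comm])

theorem dgT_mulVec {F : Type*} [Field F] (a : Fˣ) (x : Fin 2 → F) :
    (dgT F a : Matrix (Fin 2) (Fin 2) F).mulVec x = ![a * x 0, (a⁻¹ : Fˣ) * x 1] := by
  change (!![(a : F), 0; 0, ((a⁻¹ : Fˣ) : F)]).mulVec x = _
  ext i; fin_cases i <;> simp [Matrix.mulVec, dotProduct]

/-- `x` is a `p'`-element acting non-trivially on `T` and transitively on `[T, x]#`. -/
def TrEl (p : ℕ) (T : Subgroup G) (x : G) : Prop :=
  x ∈ 𝐍⟮T⟯ ∧ (orderOf x).Coprime p ∧ x ∉ 𝐂⟮T⟯ ∧ ∀ a ∈ ⁅T, zpowers x⁆, ∀ b ∈ ⁅T, zpowers x⁆,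
    a ≠ 1 → b ≠ 1 → ∃ k : ℕ, x ^ k * a * (x ^ k)⁻¹ = b

theorem torus_wc {V₀ T E : Subgroup G} [V₀.Normal] (h2 : p ≠ 2) (hV : IsElementaryAbelian p V)
    (hp₀ : IsPGroup p V₀) (hc₀ : V₀ ≤ 𝐂⟮V₀⟯)
    (hr : ∀ y : G, (orderOf y).Coprime p → ⁅V₀, zpowers y⁆ ≤ V) (hC : 𝐂⟮V⟯ ≤ 𝐂⟮V₀⟯) (hT : T ≤ V₀)
    (hTS : S ≤ 𝐂⟮T⟯) (s1 : IsSylowIn p (S ⊓ E) E) (hE : ¬ E ≤ 𝐍⟮T⟯) {F : Type} [Field F] [Fintype F]
    [_root_.CharP F p] {σ : E →* SL(2, F)} {ψ : G → Fin 2 → F}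
    (d : NatData F E ⁅V, E⁆ (⁅V, E⁆ ⊓ 𝐂⟮E⟯) σ ψ) (su : Function.Surjective σ)
    (ker : σ.ker = 𝐂⟮V⟯.subgroupOf E) (ha : ∃ a : E, (a : G) ∈ S ∧ σ a = upper 1)
    (hb : ∀ e : E, σ e 1 0 = 0 → (e : G) ∈ 𝐍⟮T⟯) : ∃ x, TrEl p T x := by
  have key : ∀ y ∈ E, (orderOf y).Coprime p → ⁅V₀, zpowers y⁆ ≤ ⁅V, E⁆ := fun y hy ho => by
    rw [← Core.commutator_commutator_eq _ _ (le_norm_of_normal _ _) (coprime_card_zpowers ho hp₀)
      (Or.inr (Core.solvable_of_isPGroup hp₀))]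
    exact commutator_mono (hr y ho) (zpowers_le.2 hy)
  obtain ⟨l, hl⟩ := IsCyclic.exists_monoid_generator (α := Fˣ)
  obtain ⟨x₀, hx₀⟩ := su (dgT F l)
  obtain ⟨x, -, e, ho⟩ := FGS.exists_pPrime_lift σ (p := p) x₀ (by
    rw [hx₀]
    refine Nat.Coprime.coprime_dvd_left ((orderOf_map_dvd _ _).trans (orderOf_dvd_natCard _)) ?_
    obtain ⟨n, -, hn⟩ := FiniteField.card F p
    rw [Nat.card_units, Nat.card_eq_fintype_card, hn]
    exact (Nat.coprime_pow_right_iff n.pos _ _).1 ((Nat.coprime_self_sub_left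
      (Nat.one_le_pow _ _ hp.out.pos)).2 (by simp)))
  rw [hx₀] at e
  rw [← Subgroup.orderOf_coe] at ho
  have xT := hb x (by rw [e]; rfl)
  have nT := zpowers_le.2 xT
  refine ⟨x, xT, ho, fun hx => hE ((s1.pResOf_sup.ge.trans (sup_le (pResOf_le_iff.2 fun y hy hy' =>
    ?_) (inf_le_left.trans hTS))).trans (centralizer_le_normalizer' T)), fun a h1 b h3 a1 b1 => ?_⟩
  · obtain ⟨k, hk⟩ := hl (-1)
    have hz : σ (x ^ k) = dgT F (-1) := by rw [map_pow, e, ← map_pow]; exact congrArg _ hk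
    refine mem_cent.2 fun t ht => ?_
    have c1 : y * t * y⁻¹ * t⁻¹ ∈ ⁅V₀, zpowers y⁆ := by
      rw [commutator_comm]; exact commutator_mem_commutator (mem_zpowers y) (hT ht)
    have c2 : x ^ k * ⟨y, hy⟩ * (x ^ k)⁻¹ * (⟨y, hy⟩ : E)⁻¹ ∈ σ.ker := by
      have : dgT F (-1) = -1 := Subtype.ext (by
        change !![_, _; _, _] = _; ext i j; fin_cases i <;> fin_cases j <;> simp)
      simp [hz, this]
    rw [ker, mem_subgroupOf] at c2
    have c3 := mem_cent.1 (hC c2) _ (‹V₀.Normal›.conj_mem t (hT ht) y)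
    have c4 := mem_cent.1 (pow_mem hx k) t ht
    have c5 := d.conj (x ^ k) _ (key y hy hy' c1)
    rw [show ((x ^ k : E) : G) * (y * t * y⁻¹ * t⁻¹) * ((x ^ k : E) : G)⁻¹ = y * t * y⁻¹ * t⁻¹ by
      push_cast at c3 ⊢
      conv_rhs => rw [← c3]
      conv_rhs => enter [2]; rw [← c4]
      conv_rhs => enter [1, 1, 2, 1, 2]; rw [← c4]
      group, hz, dgT_mulVec] at c5
    have h2' := two_ne_zero_of_char (K := F) h2
    have c6 : ψ (y * t * y⁻¹ * t⁻¹) = 0 := by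
      ext i
      have := congrFun c5 i
      refine (mul_eq_zero.1 ?_).resolve_left h2'
      fin_cases i <;> simp [-mul_eq_zero] at this ⊢ <;> linear_combination this
    have := comm_of_coprime hy' (v := t) (c := y * t * y⁻¹ * t⁻¹) (by group)
      (((d.ker _ (key y hy hy' c1)).1 c6).2 y hy) (hV.2 _ (hr y hy' c1))
    rw [this, mul_inv_cancel_right]
  have u1 : ⁅T, zpowers (x : G)⁆ ≤ ⁅V, E⁆ := (commutator_mono hT le_rfl).trans (key x x.2 ho)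
  have inj : ∀ u ∈ ⁅T, zpowers (x : G)⁆, ψ u = 0 → u = 1 := fun u hu h0 =>
    mem_bot.1 ((Core.centralizer_inf_commutator_eq_bot _ T
      (le_centralizer_iff_isMulCommutative.1 (hT.trans (hc₀.trans (cent_anti hT)))) nT
      (coprime_card_zpowers ho (hp₀.to_le hT))).le ⟨⟨commutator_le_left_of_le_normalizer nT hu,
        cent_anti (zpowers_le.2 x.2) ((d.ker u (u1 hu)).1 h0).2⟩, hu⟩)
  have v1 : ∀ u ∈ ⁅T, zpowers (x : G)⁆, ψ u 1 = 0 := fun u hu => by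
    obtain ⟨c, c1, c2⟩ := ha
    have := d.comm c (u1 hu)
    rw [mem_cent.1 (hTS c1) u (commutator_le_left_of_le_normalizer nT hu), mul_inv_cancel, d.one, c2,
      upper_mulVec] at this
    simpa using (congrFun this 0).symm
  have v0 : ∀ u ∈ ⁅T, zpowers (x : G)⁆, u ≠ 1 → ψ u 0 ≠ 0 := fun u hu h1 h0 => h1 (inj u hu (by
    ext i; fin_cases i
    exacts [h0, v1 u hu]))
  obtain ⟨k, hk⟩ := hl (Units.mk0 _ (div_ne_zero (v0 b h3 b1) (v0 a h1 a1)))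
  have a2 : (x : G) ^ k * a * ((x : G) ^ k)⁻¹ ∈ ⁅T, zpowers (x : G)⁆ := conj_mem_of_mem_normalizer
    (right_le_normalizer_commutator _ _ (pow_mem (mem_zpowers _) k)) h1
  refine ⟨k, mul_inv_eq_one.1 (inj _ (mul_mem a2 (inv_mem h3)) ?_)⟩
  rw [d.mul _ (u1 a2) _ (inv_mem (u1 h3)), d.inv (u1 h3), ← Subgroup.coe_pow, d.conj _ _ (u1 h1),
    map_pow, e, ← map_pow, show l ^ k = _ from hk, dgT_mulVec]
  ext i; fin_cases i
  · simp [v0 a h1 a1]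
  · simp [v1 a h1, v1 b h3]

theorem wc_min {T : Subgroup G} (h2 : p ≠ 2) (hG : 𝐂⟮pCore p G⟯ ≤ pCore p G) (hS : IsSylowIn p S ⊤)
    (hT : T ≤ S ⊓ 𝐂⟮S⟯) (h : MinIn S ⊤ 𝐍⟮T⟯) (hJ : ¬ ⊤ ≤ 𝐍⟮jn 0 S⟯) : ∃ x, TrEl p T x := by
  set Q := pCore p G with hQ
  have q1 : IsPGroup p Q := Core.pCore_isPGroup p
  have q2 : Q ≤ S := pCoreOf_top.ge.trans hS.pCoreOf_le
  haveI : (omegaOneCenter p Q).Normal := Transfer.omegaOneCenter_normal Q
  have t1 : T ≤ 𝐂⟮Q⟯ := hT.trans (inf_le_right.trans (cent_anti q2))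
  have t2 : T ≤ Q ⊓ 𝐂⟮Q⟯ := le_inf (t1.trans hG) t1
  have t3 : S ≤ 𝐂⟮T⟯ := le_cent_comm (hT.trans inf_le_right)
  have top : ∀ N : Subgroup G, N.Normal → ¬ N ≤ 𝐍⟮T⟯ → pResOf p ⊤ ≤ N := fun N _ hN => by
    have : N ⊔ S = ⊤ := by_contra fun e =>
      hN (le_sup_left.trans (h.le_of_lt _ le_sup_right (lt_top_iff_ne_top.2 e)))
    rw [← this]; exact pResOf_sup_le hS.pgrp (le_norm_of_normal _ _)
  have bot : ∀ N : Subgroup G, N.Normal → N ≤ 𝐍⟮T⟯ → S ⊓ N ≤ Q := fun N _ hN =>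
    (minIn_le_pCoreOf h hS.pgrp (le_norm_of_normal _ _) hN (hS.pgrp.to_le inf_le_left)
      inf_le_right).trans pCoreOf_top.le
  have hc : 𝐂⟮omegaOneCenter p Q⟯ ≤ 𝐍⟮T⟯ := by_contra fun e => h.lt.not_ge
    (hS.pResOf_sup.ge.trans ((sup_le ((pRes_le_cent_center q1 (le_norm_of_normal _ _)
      (top _ inferInstance e)).trans (cent_anti t2)) t3).trans (centralizer_le_normalizer' T)))
  have hO : Q ≤ 𝐂⟮omegaOneCenter p Q⟯ := le_centralizer_omegaOneCenter Q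
  have hC : 𝐂⟮omegaOneCenter p Q⟯ ≤ 𝐂⟮Q ⊓ 𝐂⟮Q⟯⟯ :=
    (hS.inf_of_le_normalizer le_top (le_norm_of_normal _ _)).pResOf_sup.ge.trans (sup_le
      (pRes_le_cent_center q1 (le_norm_of_normal _ _) (pResOf_le _))
      ((bot _ inferInstance hc).trans (le_cent_comm inf_le_right)))
  have hr : ∀ y : G, (orderOf y).Coprime p → ⁅Q ⊓ 𝐂⟮Q⟯, zpowers y⁆ ≤ omegaOneCenter p Q := by
    obtain ⟨g, g1, g2, g3⟩ := S2799.loc hS hJ
    rw [pCoreOf_top] at g2 g3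
    obtain ⟨k, hk⟩ := isPGroup_iff_mem.1 hS.pgrp g g1
    obtain ⟨x, x1, x2, x3⟩ := exists_pow_not_mem hk g2
    refine fun y hy => le_centMod'.1 (zpowers_le.2 (top _ (centMod_normal _ _)
      (fun e => x2 (bot _ (centMod_normal _ _) e ⟨zpowers_le.2 g1 x1, le_norm_of_normal ⊤ _
        (mem_top x), fun v hv => ?_⟩)) (mem_pResOf (mem_top y) hy)))
    have c1 : ⁅x, v⁆ ∈ ⁅Q ⊓ 𝐂⟮Q⟯, zpowers g⁆ := by
      rw [commutator_comm]; exact commutator_mem_commutator x1 hv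
    have c2 := conj_pow_of_fix (y := x) (v := v) (c := ⁅x, v⁆) (by group)
      ((Core.le_centralizer_iff_commutator_eq_bot.2 g3 x1 _ c1).symm) p
    rw [hv.2 _ x3, mul_inv_cancel_right, eq_comm, mul_eq_right] at c2
    rw [← commutatorElement_inv]
    have c3 := commutator_le_left _ _ c1
    exact inv_mem (mem_omegaOneCenter.2 ⟨c3.1, c3.2, c2⟩)
  rw [← thompsonSubgroupOf_eq] at hJ
  obtain ⟨A, hA, hAQ⟩ : ∃ A ∈ Transfer.MaxEA 0 S, ¬ A ≤ Q := by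
    by_contra! e
    rw [← Transfer.thompsonSubgroupOf_eq_of_le (Transfer.thompsonSubgroupOf_le_iff.2 e) q2] at hJ
    exact hJ ((le_norm_of_normal _ _).trans (Transfer.normalizer_le_normalizer_thompsonSubgroupOf _))
  have hV := elemAb_omegaOneCenter (p := p) Q
  obtain ⟨E, e1, e2, e3, e4⟩ := exists_blkC (Or.inl rfl) hV hS h hO hc
    ((omegaOneCenter_le Q).trans q2) hA fun e => hAQ ((le_inf hA.1 e).trans (bot _ inferInstance hc))
  obtain ⟨s1, F, _, _, _, σ, ψ, d, su, ker, ha, hb⟩ := exists_torus h2 hS h hO hc e1 e2 e3 e4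
  exact torus_wc h2 hV (q1.to_le inf_le_left) (inf_le_right.trans (cent_anti inf_le_left)) hr hC t2 t3
    s1 e2 d su ker ha hb

omit [Finite G] hp in
theorem TrEl.map {G' : Type*} [Group G'] {f : G →* G'} (hf : Function.Injective f) {T : Subgroup G}
    {x : G} (h : TrEl p T x) : TrEl p (T.map f) (f x) := by
  obtain ⟨h1, h2, h3, h4⟩ := h
  refine ⟨map_mem_norm f h1, by rwa [orderOf_injective f hf], fun e => h3 (mem_cent_of_map hf e), ?_⟩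
  rw [← MonoidHom.map_zpowers, ← map_commutator]
  rintro _ ⟨a, ha, rfl⟩ _ ⟨b, hb, rfl⟩ a1 b1
  obtain ⟨k, rfl⟩ := h4 a ha b hb (fun e => a1 (by simp [e])) fun e => b1 (by simp [e])
  exact ⟨k, by simp⟩

theorem wc_loc {T : Subgroup G} (h2 : p ≠ 2) (hG : LocalEven.CharP p (⊤ : Subgroup G))
    (hS : IsSylowIn p S ⊤) (hT : T ≤ S ⊓ 𝐂⟮S⟯) (hJ : 𝐍⟮jn 0 S⟯ ≤ 𝐍⟮T⟯) (hn : ¬ ⊤ ≤ 𝐍⟮T⟯) :
    ∃ x, TrEl p T x := by
  obtain ⟨K, ⟨k1, k2⟩, k3⟩ := (wellFounded_lt (α := Subgroup G)).has_min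
    {K | S ≤ K ∧ ¬ K ≤ 𝐍⟮T⟯} ⟨⊤, le_top, hn⟩
  have t1 : T ≤ K := hT.trans (inf_le_left.trans k1)
  have s1 := isSylowIn_subgroupOf_top (hS.mono k1 le_top)
  have up : ∀ {X Y : Subgroup G}, X ≤ K → 𝐍⟮X⟯ ≤ Y → ⊤ ≤ 𝐍⟮X.subgroupOf K⟯ → K ≤ Y :=
    fun h1 h3 h4 x hx => h3 ((subgroupOf_normalizer_eq h1).ge (h4 (mem_top ⟨x, hx⟩)))
  have j : ¬ ⊤ ≤ 𝐍⟮jn 0 (S.subgroupOf K)⟯ := fun e =>
    k2 (up ((jn_le S).trans k1) hJ (by rwa [← Fusion.jn_subgroupOf k1]))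
  obtain ⟨x, hx⟩ := wc_min (T := T.subgroupOf K) h2 (charP_top.1 (by
      rw [← subgroupOf_self, charP_subgroupOf le_rfl]; exact hG.of_le (hS.pCoreOf_le.trans k1) le_top))
    s1 (fun x hx => ⟨(hT hx).1, fun y hy => Subtype.ext ((hT hx).2 y hy)⟩)
    (minIn_of_sylow s1 (fun e => j (e.trans (normalizer_le_normalizer_jn 0 _))) (by
      rw [← subgroupOf_normalizer_eq t1]
      exact subgroupOf_mono _ ((le_normalizer.trans (normalizer_le_normalizer_jn 0 _)).trans hJ))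
      (lt_top_iff_ne_top.2 fun e => k2 (up t1 le_rfl e.ge)) fun X h1 h3 => by
        rw [← subgroupOf_normalizer_eq t1, subgroupOf, ← map_le_iff_le_comap]
        by_contra e
        refine k3 _ ⟨(map_subgroupOf_eq_of_le k1).ge.trans (map_mono h1), e⟩ (lt_of_le_of_ne
          (map_subtype_le X) fun e' => h3.ne (map_injective K.subtype_injective ?_))
        rw [e', ← MonoidHom.range_eq_map, range_subtype]) j
  exact ⟨x, map_subgroupOf_eq_of_le t1 ▸ hx.map K.subtype_injective⟩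

end Cfsg.Agent.Push
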